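import Cfsg.Agent.S4023
import Cfsg.Agent.Lib.MinimalNormal
import Cfsg.Agent.Lib.Hall
import Cfsg.Agent.PSolv.HallHigman
import Cfsg.Agent.Coprime.Conj

/-!
# Solvable groups with conjugate `r`-subgroups of equal order and otherwise cyclic Sylow subgroups
-/

set_option autoImplicit false

namespace Cfsg.Agent.SameOrder

open Subgroup
open scoped Pointwise

variable {G : Type*} [Group G]

/-- The conjugate of a subgroup. -/
abbrev cj (g : G) (H : Subgroup G) : Subgroup G := H.map (MulAut.conj g).toMonoidHom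

theorem cj_cj (a b : G) (X : Subgroup G) : cj a (cj b X) = cj (a * b) X := by
  rw [cj, cj, cj, Subgroup.map_map]; congr 1; ext x; simp [mul_assoc]

theorem card_cj (g : G) (X : Subgroup G) : Nat.card (cj g X) = Nat.card X :=
  Subgroup.card_map_of_injective (MulAut.conj g).injective

theorem cj_of_normal (g : G) (N : Subgroup G) [hN : N.Normal] : cj g N = N := by
  ext x
  simp only [cj, Subgroup.mem_map, MulEquiv.coe_toMonoidHom, MulAut.conj_apply]
  exact ⟨by rintro ⟨y, hy, rfl⟩; exact hN.conj_mem y hy g,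
    fun hx => ⟨g⁻¹ * x * g, by simpa using hN.conj_mem x hx g⁻¹, by group⟩⟩

theorem cj_sup (g : G) (X Y : Subgroup G) : cj g (X ⊔ Y) = cj g X ⊔ cj g Y := Subgroup.map_sup _ _ _

theorem smul_eq_cj (g : G) (X : Subgroup G) : MulAut.conj g • X = cj g X := rfl

variable [Finite G]

theorem isCyclic_sylow_subgroup {r : ℕ}
    (hcyc : ∀ p : ℕ, p.Prime → p ≠ r → ∀ P : Sylow p G, IsCyclic P) (B : Subgroup G) :
    ∀ p : ℕ, p.Prime → p ≠ r → ∀ P : Sylow p B, IsCyclic P := by
  intro p hp hpr P
  obtain ⟨Q, hQ⟩ := (P.isPGroup'.map B.subtype).exists_le_sylow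
  haveI := hcyc p hp hpr Q
  exact isCyclic_of_injective ((Subgroup.inclusion hQ).comp
    ((P : Subgroup B).equivMapOfInjective B.subtype B.subtype_injective).toMonoidHom)
    ((Subgroup.inclusion_injective hQ).comp (MulEquiv.injective _))

/-- A normal subgroup of order `q` is the only one, if the Sylow `q`-subgroups are cyclic. -/
theorem eq_of_card_prime {q : ℕ} [Fact q.Prime] (hcyc : ∀ P : Sylow q G, IsCyclic P)
    {N Y : Subgroup G} [N.Normal] (hN : Nat.card N = q) (hY : Nat.card Y = q) : Y = N := by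
  obtain ⟨Q, hQ⟩ := (IsPGroup.of_card (n := 1) (by rw [hY, pow_one]) : IsPGroup q Y).exists_le_sylow
  have hNQ : N ≤ Q := (Cores.le_pCore inferInstance (IsPGroup.of_card (n := 1) (by rw [hN, pow_one]) :
    IsPGroup q N)).trans (Cores.pCore_le_sylow Q)
  haveI := hcyc Q
  classical
  let : Fintype (Q : Subgroup G) := Fintype.ofFinite _
  set T := Finset.univ.filter fun x : (Q : Subgroup G) => x ^ q = 1
  have hT : T.card ≤ q := IsCyclic.card_pow_eq_one_le (Fact.out : q.Prime).pos
  have hsub : ∀ {Z : Subgroup G}, Nat.card Z = q → Z ≤ Q →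
      (Finset.univ.filter fun x : (Q : Subgroup G) => (x : G) ∈ Z) = T := by
    intro Z hZ hZQ
    refine Finset.eq_of_subset_of_card_le (fun x hx => ?_) ?_
    · simp only [T, Finset.mem_filter, Finset.mem_univ, true_and] at hx ⊢
      refine orderOf_dvd_iff_pow_eq_one.1 ?_
      have h1 := Subgroup.orderOf_dvd_natCard _ hx
      rwa [hZ, Subgroup.orderOf_coe] at h1
    · refine hT.trans (le_of_eq (hZ.symm.trans ?_))
      rw [← Nat.card_congr (subgroupOfEquivOfLe hZQ).toEquiv, ← Nat.card_eq_finsetCard]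
      exact Nat.card_congr (Equiv.subtypeEquivRight fun x => by simp [Subgroup.mem_subgroupOf])
  refine Subgroup.eq_of_le_of_card_ge (fun x hx => ?_) (by rw [hN, hY])
  have h1 := (Finset.ext_iff.1 ((hsub hY hQ).trans (hsub hN hNQ).symm) ⟨x, hQ hx⟩).1
    (Finset.mem_filter.2 ⟨Finset.mem_univ _, hx⟩)
  exact (Finset.mem_filter.1 h1).2

/-- Lifting an `r`-subgroup from a quotient by an `r'`-group. -/
theorem exists_lift {r : ℕ} [Fact r.Prime] (N : Subgroup G) [N.Normal]
    (hN : (Nat.card N).Coprime r) {X : Subgroup (G ⧸ N)} (hX : IsPGroup r X) :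
    ∃ Y : Subgroup G, IsPGroup r Y ∧ Y.map (QuotientGroup.mk' N) = X ∧ Nat.card Y = Nat.card X := by
  set π := QuotientGroup.mk' N
  obtain ⟨P⟩ : Nonempty (Sylow r ↥(X.comap π)) := inferInstance
  let f : ↥(X.comap π) →* X := (π.comp (X.comap π).subtype).codRestrict X fun x => x.2
  have hf : Function.Surjective f := fun ⟨y, hy⟩ => by
    obtain ⟨g, rfl⟩ := QuotientGroup.mk'_surjective N y
    exact ⟨⟨g, hy⟩, rfl⟩
  set Y := (P : Subgroup ↥(X.comap π)).map (X.comap π).subtype with hYdef
  have hY : IsPGroup r Y := P.isPGroup'.map _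
  have hmap : Y.map π = X := by
    have h1 : ((P.mapSurjective hf : Sylow r X) : Subgroup X) = ⊤ :=
      (P.mapSurjective hf).is_maximal' (hX.to_subgroup ⊤ |>.of_equiv (MulEquiv.refl _)) le_top |>.symm
    rw [Sylow.coe_mapSurjective] at h1
    have h2 := congrArg (Subgroup.map X.subtype) h1
    rw [Subgroup.map_map, ← MonoidHom.range_eq_map, Subgroup.range_subtype] at h2
    rw [hYdef, Subgroup.map_map]
    exact h2
  refine ⟨Y, hY, hmap, ?_⟩
  rw [← hmap]
  refine (Nat.card_congr (Equiv.ofBijective (π.subgroupMap Y) ⟨?_, π.subgroupMap_surjective Y⟩))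
  refine (injective_iff_map_eq_one _).2 fun x hx => ?_
  have hxN : (x : G) ∈ N := (QuotientGroup.eq_one_iff _).1 (congrArg Subtype.val hx)
  obtain ⟨k, hk⟩ := hY x
  have h1 : orderOf (x : G) ∣ r ^ k := by
    rw [Subgroup.orderOf_coe]; exact orderOf_dvd_of_pow_eq_one hk
  exact Subtype.ext (orderOf_eq_one_iff.1 (Nat.eq_one_of_dvd_coprimes (hN.pow_right k)
    (Subgroup.orderOf_dvd_natCard _ hxN) h1))

/-- With trivial `r'`-core the Sylow `r`-subgroup is normal. -/
theorem sylow_le_pCore [Group.IsSolvable G] {r : ℕ} [Fact r.Prime]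
    (hD : ∀ H K : Subgroup G, IsPGroup r H → IsPGroup r K → Nat.card H = Nat.card K →
      ∃ g : G, K = H.map (MulAut.conj g).toMonoidHom)
    (hO : Cfsg.pPrimeCore r G = ⊥) (R : Sylow r G) : (R : Subgroup G) ≤ Cfsg.pCore r G := by
  set F := Cfsg.pCore r G with hF
  have hCF := PSolv.centralizer_pCore_le (PSolv.isPSolvable_of_isSolvable inferInstance) hO
  rcases eq_or_ne F ⊥ with h0 | h0
  · refine le_trans (fun x _ => ?_) hCF
    exact mem_centralizer_iff.2 fun y hy => by
      rw [SetLike.mem_coe, ← hF, h0, Subgroup.mem_bot] at hy; simp [hy]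
  obtain ⟨a, ha⟩ := Cores.pCore_isPGroup.exists_card_eq (p := r) (G := F)
  have hFpos : 1 ≤ a := by
    rcases a with - | a
    · exact absurd (Subgroup.card_eq_one.1 (by rw [ha, pow_zero])) h0
    · omega
  -- subgroups of the order of a normal subgroup
  have hsmall : ∀ x ∈ (R : Subgroup G), orderOf x ∣ r ^ a → x ∈ F := by
    intro x hx hxa
    obtain ⟨i, hi, hxi⟩ := (Nat.dvd_prime_pow Fact.out).1 hxa
    obtain ⟨R', hR'⟩ : ∃ X : Subgroup G, Nat.card X = r ^ i ∧ X ≤ F := by
      obtain ⟨X, hX, -⟩ := Sylow.exists_subgroup_card_pow_prime_le (G := F) r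
        (n := 0) (m := i) (by rw [ha]; exact pow_dvd_pow r hi) (⊥ : Subgroup F)
        (by rw [Subgroup.card_bot, pow_zero]) (Nat.zero_le _)
      exact ⟨X.map F.subtype, by rw [Subgroup.card_map_of_injective F.subtype_injective, hX],
        Subgroup.map_subtype_le X⟩
    obtain ⟨g, hg⟩ := hD R' (zpowers x) (IsPGroup.of_card hR'.1)
      (R.isPGroup'.to_le (zpowers_le.2 hx)) (by rw [hR'.1, Nat.card_zpowers, hxi])
    have h1 : zpowers x ≤ cj g F := hg ▸ Subgroup.map_mono hR'.2
    rw [cj_of_normal] at h1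
    exact h1 (mem_zpowers x)
  have hexp : ∀ {x : G}, x ∈ (R : Subgroup G) → x ^ r = 1 → x ∈ F := fun hx hxr =>
    hsmall _ hx ((orderOf_dvd_of_pow_eq_one hxr).trans (dvd_pow_self r (by omega)))
  rcases Cfsg.Agent.S4023.result hD R with hc | hel | ⟨rfl, ⟨e⟩⟩ | ⟨-, -, -, hexp'⟩
  · refine le_trans (fun x hx => mem_centralizer_iff.2 fun y hy => ?_) hCF
    haveI := hc
    let : CommGroup ↥(R : Subgroup G) := IsCyclic.commGroup
    exact congrArg Subtype.val (mul_comm (⟨y, Cores.pCore_le_sylow R hy⟩ : (R : Subgroup G)) ⟨x, hx⟩)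
  · exact fun x hx => hexp hx (hel.2 x hx)
  · rcases (show a = 1 ∨ 2 ≤ a by omega) with rfl | ha2
    · refine le_trans (fun x _ => mem_centralizer_iff.2 fun y hy => ?_) hCF
      rw [pow_one] at ha
      rcases eq_or_ne y 1 with rfl | hy1
      · simp
      have h2 : (⟨y, hy⟩ : F) ≠ 1 := fun h => hy1 (congrArg Subtype.val h)
      have hc : x * y * x⁻¹ ∈ F := (inferInstance : F.Normal).conj_mem y hy x
      obtain ⟨b, -, hb2⟩ := Nat.card_eq_two_iff' (1 : F) |>.1 ha
      have e2 := (hb2 ⟨x * y * x⁻¹, hc⟩ fun h => hy1 (conj_eq_one_iff.1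
        (congrArg Subtype.val h))).trans (hb2 _ h2).symm
      exact (mul_inv_eq_iff_eq_mul.1 (congrArg Subtype.val e2)).symm
    · refine fun x hx => hsmall x hx (dvd_trans ?_ (pow_dvd_pow 2 ha2))
      have h1 := Monoid.order_dvd_exponent (e ⟨x, hx⟩)
      rw [QuaternionGroup.exponent, MulEquiv.orderOf_eq, Subgroup.orderOf_mk] at h1
      exact h1.trans (by decide)
  · exact fun x hx => hexp hx (congrArg Subtype.val
      (hexp' ▸ Monoid.pow_exponent_eq_one (⟨x, hx⟩ : (R : Subgroup G))))

theorem card_inf_normal_sylow {r : ℕ} [Fact r.Prime] (R : Sylow r G)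
    [(R : Subgroup G).Normal] (H : Subgroup G) :
    Nat.card ↥(H ⊓ R : Subgroup G) = r ^ (Nat.card H).factorization r := by
  obtain ⟨P⟩ : Nonempty (Sylow r H) := inferInstance
  have e : H ⊓ (R : Subgroup G) = (P : Subgroup H).map H.subtype := by
    refine le_antisymm ?_ (le_inf (map_subtype_le _) ?_)
    · intro x hx
      have hPn : ((R : Subgroup G).subgroupOf H) ≤ (P : Subgroup H) :=
        (Cores.le_pCore inferInstance R.isPGroup'.comap_subtype).trans (Cores.pCore_le_sylow P)
      exact ⟨⟨x, hx.1⟩, hPn hx.2, rfl⟩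
    · intro x hx
      obtain ⟨R', hR'⟩ := (P.isPGroup'.map H.subtype).exists_le_sylow
      haveI := Sylow.unique_of_normal R inferInstance
      rw [Subsingleton.elim R R']
      exact hR' hx
  rw [e, Subgroup.card_map_of_injective H.subtype_injective, P.card_eq_multiplicity]

theorem conj_of_card_eq_aux (n : ℕ) : ∀ (G : Type*) [Group G] [Finite G] [Group.IsSolvable G],
    Nat.card G ≤ n → ∀ (r : ℕ) [Fact r.Prime],
      (∀ H K : Subgroup G, IsPGroup r H → IsPGroup r K → Nat.card H = Nat.card K →
        ∃ g : G, K = H.map (MulAut.conj g).toMonoidHom) →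
      (∀ p : ℕ, p.Prime → p ≠ r → ∀ P : Sylow p G, IsCyclic P) →
      ∀ H K : Subgroup G, Nat.card H = Nat.card K → ∃ g : G, K = cj g H := by
  induction n with
  | zero => intro G _ _ _ hn; exact absurd hn (by have := Nat.card_pos (α := G); omega)
  | succ n ih =>
  intro G _ _ _ hn r _ hD hcyc H K hHK
  have hr : r.Prime := Fact.out
  by_cases hO : Cfsg.pPrimeCore r G = ⊥
  · -- the Sylow `r`-subgroup is normal
    rcases subsingleton_or_nontrivial G with hs | hnt
    · exact ⟨1, Subsingleton.elim _ _⟩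
    obtain ⟨R⟩ : Nonempty (Sylow r G) := inferInstance
    have hRF : (R : Subgroup G) = Cfsg.pCore r G :=
      le_antisymm (sylow_le_pCore hD hO R) (Cores.pCore_le_sylow R)
    haveI hRn : (R : Subgroup G).Normal := hRF ▸ inferInstance
    have hr1 : r ∣ Nat.card G := by
      obtain ⟨N, hNn, hN0, -, -, q, hq, -, hNq⟩ := MinNormal.exists_elementary_abelian (G := G)
      haveI := Fact.mk hq
      by_contra hnd
      refine hN0 (le_bot_iff.1 (hO ▸ Cores.le_pPrimeCore_of_not_dvd hNn fun h => ?_))
      exact hnd (h.trans (Subgroup.card_subgroup_dvd_card N))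
    set S := H ⊓ (R : Subgroup G) with hS
    have hcS : Nat.card ↥(K ⊓ R : Subgroup G) = Nat.card S := by
      rw [hS, card_inf_normal_sylow, card_inf_normal_sylow, hHK]
    obtain ⟨g, hg⟩ := hD S (K ⊓ R) (R.isPGroup'.to_le inf_le_right) (R.isPGroup'.to_le inf_le_right)
      hcS.symm
    suffices key : ∀ H K : Subgroup G, Nat.card H = Nat.card K →
        H ⊓ (R : Subgroup G) = K ⊓ R → ∃ g : G, K = cj g H by
      obtain ⟨g', hg'⟩ := key (cj g H) K (by rw [card_cj, hHK]) (by
        rw [hg, hS, Subgroup.map_inf _ _ _ (MulAut.conj g).injective]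
        exact congrArg _ (cj_of_normal g (R : Subgroup G)).symm)
      exact ⟨g' * g, by rw [hg', cj_cj]⟩
    intro H K hHK hSS
    set S := H ⊓ (R : Subgroup G) with hS
    set M := normalizer (S : Set G) with hM
    have hle : ∀ {X : Subgroup G}, X ⊓ (R : Subgroup G) = S → X ≤ M := fun {X} e x hx =>
      Subgroup.mem_normalizer_iff.2 fun y => by
        rw [← e]
        refine and_congr ?_ ?_
        · exact ⟨fun hy => X.mul_mem (X.mul_mem hx hy) (X.inv_mem hx), fun hy => by
            simpa [mul_assoc] using X.mul_mem (X.mul_mem (X.inv_mem hx) hy) hx⟩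
        · exact ⟨fun hy => hRn.conj_mem y hy x, fun hy => by
            have h1 := hRn.conj_mem _ hy x⁻¹
            rwa [show x⁻¹ * (x * y * x⁻¹) * x⁻¹⁻¹ = y by group] at h1⟩
    set π : Set ℕ := {p | p ≠ r} with hπ
    obtain ⟨B, hB⟩ := Hall.exists_isPiHall (G := M) π
    haveI : Group.IsSolvable M := inferInstance
    -- a complement of `S` in `X`, conjugated into `B`
    have hcompl : ∀ X : Subgroup G, X ⊓ (R : Subgroup G) = S → ∃ m ∈ M, ∃ X' : Subgroup G,
        X' ≤ B.map M.subtype ∧ cj m X = S ⊔ X' ∧ Nat.card X' * Nat.card S = Nat.card X := by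
      intro X hX
      have hSn : ((S : Subgroup G).subgroupOf X).Normal :=
        normal_subgroupOf_of_le_normalizer (hle hX)
      have hSX : S ≤ X := hX ▸ inf_le_left
      have hcop : (Nat.card (S.subgroupOf X)).Coprime (S.subgroupOf X).index := by
        have e1 : Nat.card (S.subgroupOf X) = r ^ (Nat.card X).factorization r := by
          rw [Nat.card_congr (subgroupOfEquivOfLe hSX).toEquiv, ← hX, card_inf_normal_sylow]
        have e2 := Subgroup.card_mul_index (S.subgroupOf X)
        rw [e1] at e2 ⊢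
        refine Nat.Coprime.pow_left _ (hr.coprime_iff_not_dvd.2 fun hd => ?_)
        have h3 : r ^ ((Nat.card X).factorization r + 1) ∣ Nat.card X := by
          rw [pow_succ]
          exact (mul_dvd_mul_left _ hd).trans e2.dvd
        exact Nat.pow_succ_factorization_not_dvd Nat.card_pos.ne' hr h3
      obtain ⟨C, hC⟩ := Subgroup.exists_right_complement'_of_coprime hcop
      set X₁ := C.map X.subtype with hX₁
      have hX₁X : X₁ ≤ X := map_subtype_le C
      have hcard : Nat.card X₁ = (S.subgroupOf X).index := by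
        rw [hX₁, Subgroup.card_map_of_injective X.subtype_injective, hC.symm.index_eq_card]
      have hX₁π : Hall.PiNum π (Nat.card (X₁.subgroupOf M)) := fun p hp hpd e => by
        subst e
        rw [Nat.card_congr (subgroupOfEquivOfLe (hX₁X.trans (hle hX))).toEquiv, hcard] at hpd
        have h0 : (Nat.card (S.subgroupOf X)) = 1 ∨ p ∣ Nat.card (S.subgroupOf X) := by
          rw [Nat.card_congr (subgroupOfEquivOfLe hSX).toEquiv, ← hX, card_inf_normal_sylow]
          rcases Nat.eq_zero_or_pos ((Nat.card X).factorization p) with h | h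
          · exact Or.inl (by rw [h, pow_zero])
          · exact Or.inr (dvd_pow_self p h.ne')
        rcases h0 with h0 | h0
        · have h4 := Subgroup.card_mul_index (S.subgroupOf X)
          rw [h0, one_mul] at h4
          rw [h4] at hpd
          have h5 := hp.factorization_pos_of_dvd Nat.card_pos.ne' hpd
          rw [Nat.card_congr (subgroupOfEquivOfLe hSX).toEquiv, ← hX, card_inf_normal_sylow,
            Nat.pow_eq_one] at h0
          rcases h0 with h0 | h0
          · exact hp.ne_one h0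
          · omega
        · exact hp.ne_one (Nat.eq_one_of_dvd_coprimes hcop h0 hpd)
      obtain ⟨m, hm⟩ := Hall.le_conj_isPiHall hB hX₁π
      refine ⟨m, m.2, cj (m : G) X₁, ?_, ?_, ?_⟩
      · rintro _ ⟨x, hx, rfl⟩
        exact ⟨_, hm (Subgroup.smul_mem_pointwise_smul ⟨x, hle hX (hX₁X hx)⟩ (MulAut.conj m) _
          (Subgroup.mem_subgroupOf.2 hx)), rfl⟩
      · have e : X = S ⊔ X₁ := by
          have h1 := congrArg (Subgroup.map X.subtype) hC.sup_eq_top
          rw [Subgroup.map_sup, ← hX₁, map_subgroupOf_eq_of_le hSX, ← MonoidHom.range_eq_map,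
            Subgroup.range_subtype] at h1
          exact h1.symm
        conv_lhs => rw [e, cj_sup]
        congr 1
        exact Subgroup.mem_normalizer_iff_map_conj_eq.1 m.2
      · rw [card_cj, hcard, ← Nat.card_congr (subgroupOfEquivOfLe hSX).toEquiv, mul_comm,
          Subgroup.card_mul_index]
    obtain ⟨m₁, hm₁, H', hH', eH, cH⟩ := hcompl H rfl
    obtain ⟨m₂, hm₂, K', hK', eK, cK⟩ := hcompl K hSS.symm
    set B' := B.map M.subtype
    have hcB : ¬ r ∣ Nat.card B' := fun h => by
      rw [Subgroup.card_map_of_injective M.subtype_injective] at h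
      exact hB.1 r hr h rfl
    have hBn : Nat.card B' ≤ n := by
      have h1 : Nat.card B' < Nat.card G := lt_of_le_of_ne (Nat.le_of_dvd Nat.card_pos
        (Subgroup.card_subgroup_dvd_card B')) fun e => hcB (e ▸ hr1)
      omega
    obtain ⟨b, hb⟩ := ih B' hBn r (fun X Y hX hY _ => ⟨1, by
        have hbot : ∀ {Z : Subgroup B'}, IsPGroup r Z → Z = ⊥ := fun {Z} hZ => by
          obtain ⟨i, hi⟩ := hZ.exists_card_eq
          rcases i with - | i
          · exact Subgroup.card_eq_one.1 (by rw [hi, pow_zero])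
          · exact absurd ((dvd_pow_self r i.succ_ne_zero).trans (hi ▸ Z.card_subgroup_dvd_card)) hcB
        rw [hbot hX, hbot hY, Subgroup.map_bot]⟩)
      (isCyclic_sylow_subgroup hcyc B') (H'.subgroupOf B') (K'.subgroupOf B') (by
        rw [Nat.card_congr (subgroupOfEquivOfLe hH').toEquiv,
          Nat.card_congr (subgroupOfEquivOfLe hK').toEquiv]
        exact Nat.eq_of_mul_eq_mul_right (Nat.card_pos (α := S)) (by rw [cH, cK, hHK]))
    have hb' : K' = cj (b : G) H' := by
      have h1 := congrArg (Subgroup.map B'.subtype) hb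
      rw [map_subgroupOf_eq_of_le hK', cj, Subgroup.map_map] at h1
      rw [h1, cj, ← map_subgroupOf_eq_of_le hH', Subgroup.map_map,
        map_subgroupOf_eq_of_le hH']
      congr 1
    have hbM : (b : G) ∈ M := map_subtype_le B b.2
    refine ⟨m₂⁻¹ * ((b : G) * m₁), ?_⟩
    rw [← cj_cj, ← cj_cj, eH, cj_sup, ← hb',
      show cj (b : G) S = S from Subgroup.mem_normalizer_iff_map_conj_eq.1 hbM, ← eK, cj_cj,
      inv_mul_cancel]
    exact (Subgroup.map_id K).symm.trans (congrArg (fun f => K.map f) (by ext x; simp))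
  · -- a normal subgroup of order prime to `r`
    obtain ⟨N, -, hNmin⟩ := Finite.exists_le_minimal
      (p := fun X : Subgroup G => X.Normal ∧ X ≠ ⊥ ∧ X ≤ Cfsg.pPrimeCore r G)
      (a := Cfsg.pPrimeCore r G) ⟨inferInstance, hO, le_rfl⟩
    obtain ⟨hNn, hN0, hNO⟩ := hNmin.1
    haveI := hNn
    obtain ⟨hNab, q, hq, hNexp, hNq⟩ := MinNormal.elementary_abelian' N hN0 fun X hX hXN => by
      by_contra hc
      push Not at hc
      exact hc.2 (le_antisymm hXN (hNmin.2 ⟨hX, hc.1, hXN.trans hNO⟩ hXN))
    haveI := Fact.mk hq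
    have hNr : (Nat.card N).Coprime r :=
      Cores.pPrimeCore_coprime.coprime_dvd_left (Subgroup.card_dvd_of_le hNO)
    obtain ⟨i, hi⟩ := hNq.exists_card_eq
    have hi0 : i ≠ 0 := fun h => hN0 (Subgroup.card_eq_one.1 (by rw [hi, h, pow_zero]))
    have hqr : q ≠ r := by
      rintro rfl
      exact hq.ne_one (Nat.eq_one_of_dvd_coprimes hNr (hi ▸ dvd_pow_self q hi0) dvd_rfl)
    have hNcard : Nat.card N = q := by
      obtain ⟨Q, hQ⟩ := hNq.exists_le_sylow
      haveI := hcyc q hq hqr Q
      haveI : IsCyclic N := isCyclic_of_injective _ (Subgroup.inclusion_injective hQ)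
      have h1 : Monoid.exponent N ∣ q :=
        Monoid.exponent_dvd_of_forall_pow_eq_one fun x => Subtype.ext (hNexp x x.2)
      rw [IsCyclic.exponent_eq_card] at h1
      exact ((Nat.dvd_prime hq).1 h1).resolve_left fun h => hN0 (Subgroup.card_eq_one.1 h)
    set π := QuotientGroup.mk' N with hπ
    have hDq : ∀ X Y : Subgroup (G ⧸ N), IsPGroup r X → IsPGroup r Y → Nat.card X = Nat.card Y →
        ∃ g : G ⧸ N, Y = X.map (MulAut.conj g).toMonoidHom := by
      intro X Y hX hY hXY
      obtain ⟨X', hX', eX, cX⟩ := exists_lift N hNr hX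
      obtain ⟨Y', hY', eY, cY⟩ := exists_lift N hNr hY
      obtain ⟨g, hg⟩ := hD X' Y' hX' hY' (by rw [cX, cY, hXY])
      refine ⟨π g, ?_⟩
      rw [← eX, ← eY, hg, Subgroup.map_map, Subgroup.map_map]
      congr 1
    have hcycq : ∀ p : ℕ, p.Prime → p ≠ r → ∀ P : Sylow p (G ⧸ N), IsCyclic P := by
      intro p hp hpr P
      haveI := Fact.mk hp
      obtain ⟨P', rfl⟩ := Sylow.mapSurjective_surjective (f := π) (QuotientGroup.mk'_surjective N) p P
      haveI := hcyc p hp hpr P'
      rw [Sylow.coe_mapSurjective]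
      exact isCyclic_of_surjective (π.subgroupMap (P' : Subgroup G)) (π.subgroupMap_surjective _)
    have hQn : Nat.card (G ⧸ N) ≤ n := by
      have h1 := Subgroup.card_eq_card_quotient_mul_card_subgroup N
      rw [hNcard] at h1
      have := Nat.card_pos (α := G ⧸ N)
      have := hq.two_le
      nlinarith
    have hQ := ih (G ⧸ N) hQn r hDq hcycq (H.map π) (K.map π)
    have hcases : ∀ X : Subgroup G, q ∣ Nat.card X → N ≤ X := by
      intro X hX
      obtain ⟨x, hx⟩ := exists_prime_orderOf_dvd_card' q hX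
      have h1 : zpowers (x : G) = N := eq_of_card_prime (hcyc q hq hqr) hNcard
        (by rw [Nat.card_zpowers, Subgroup.orderOf_coe, hx])
      exact h1 ▸ zpowers_le.2 x.2
    have himg : ∀ (g : G) (X : Subgroup G), cj (π g) (X.map π) = (cj g X).map π := fun g X => by
      rw [cj, cj, Subgroup.map_map, Subgroup.map_map]; congr 1
    by_cases hdH : q ∣ Nat.card H
    · have hNH := hcases H hdH
      have hNK := hcases K (hHK ▸ hdH)
      obtain ⟨gq, hgq⟩ := hQ (by
        refine Nat.eq_of_mul_eq_mul_right (Nat.card_pos (α := N)) ?_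
        have key : ∀ X : Subgroup G, N ≤ X → Nat.card (X.map π) * Nat.card N = Nat.card X := by
          intro X hX
          have h := Subgroup.relIndex_ker (K := X) π
          rw [hπ, QuotientGroup.ker_mk'] at h
          rw [← h, ← Nat.card_congr (subgroupOfEquivOfLe hX).toEquiv]
          exact Subgroup.index_mul_card _
        rw [key H hNH, key K hNK, hHK])
      obtain ⟨g, rfl⟩ := QuotientGroup.mk'_surjective N gq
      refine ⟨g, ?_⟩
      have e := hgq.trans (himg g H)
      have h1 := congrArg (Subgroup.comap π) e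
      rwa [comap_map_eq_self (by rw [hπ, QuotientGroup.ker_mk']; exact hNK),
        comap_map_eq_self (by
          rw [hπ, QuotientGroup.ker_mk']
          exact (cj_of_normal g N).ge.trans (Subgroup.map_mono hNH))] at h1
    · have hcop : ∀ X : Subgroup G, Nat.card X = Nat.card H → (Nat.card X).Coprime (Nat.card N) :=
        fun X hX => by rw [hX, hNcard]; exact (hq.coprime_iff_not_dvd.2 hdH).symm
      obtain ⟨gq, hgq⟩ := hQ (by
        have key : ∀ X : Subgroup G, Nat.card X = Nat.card H →
            Nat.card (X.map π) = Nat.card X := fun X hX => by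
          refine (Nat.card_congr (Equiv.ofBijective (π.subgroupMap X)
            ⟨?_, π.subgroupMap_surjective X⟩)).symm
          refine (injective_iff_map_eq_one _).2 fun x hx => Subtype.ext ?_
          have : (x : G) ∈ X ⊓ N := ⟨x.2, (QuotientGroup.eq_one_iff _).1 (congrArg Subtype.val hx)⟩
          rwa [Subgroup.inf_eq_bot_of_coprime (hcop X hX), Subgroup.mem_bot] at this
        rw [key H rfl, key K hHK.symm, hHK])
      obtain ⟨g, rfl⟩ := QuotientGroup.mk'_surjective N gq
      have e := congrArg (Subgroup.comap π) (hgq.trans (himg g H))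
      rw [comap_map_eq, comap_map_eq, hπ, QuotientGroup.ker_mk'] at e
      obtain ⟨k, -, hk⟩ := Coprime.complement_conj (A := cj g H) (B := K) (K := N)
        Subgroup.le_normalizer_of_normal (hcop _ (card_cj g H)) (hcop K hHK.symm) e
        (Or.inl inferInstance)
      exact ⟨k * g, by rw [hk, smul_eq_cj, cj_cj]⟩

/-- Solvable, conjugate `r`-subgroups of equal order, other Sylow subgroups cyclic: any two
subgroups of equal order are conjugate. -/
theorem conj_of_card_eq [Group.IsSolvable G] (r : ℕ) [Fact r.Prime]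
    (hD : ∀ H K : Subgroup G, IsPGroup r H → IsPGroup r K → Nat.card H = Nat.card K →
      ∃ g : G, K = H.map (MulAut.conj g).toMonoidHom)
    (hcyc : ∀ p : ℕ, p.Prime → p ≠ r → ∀ P : Sylow p G, IsCyclic P) (H K : Subgroup G)
    (h : Nat.card H = Nat.card K) : ∃ g : G, K = H.map (MulAut.conj g).toMonoidHom :=
  conj_of_card_eq_aux _ G le_rfl r hD hcyc H K h

end Cfsg.Agent.SameOrder
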